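import Cfsg.Agent.Lib.Helper30.DSims.Defs
import Cfsg.Agent.Lib.Helper49.Shunt.SimsCoreSym

/-!
# DSIMS package (P1): `|P| = 2 ^ t`, `t ≤ 4`

From `lemSimsCoreSym` with `D := P`, `g := y * x⁻¹`.
-/

namespace Cfsg.Agent.Lib.Helper49.DSims

universe u

open Pointwise
open Cfsg.Agent.Lib.Helper30.DSims

variable {G : Type u} [Group G]

theorem mem_cj {g z : G} {K : Subgroup G} : z ∈ MulAut.conj g • K ↔ g⁻¹ * z * g ∈ K := by
  rw [Subgroup.mem_pointwise_smul_iff_inv_smul_mem]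
  have e : (MulAut.conj g)⁻¹ • z = g⁻¹ * z * g := by
    rw [MulAut.smul_def, ← map_inv, MulAut.conj_apply, inv_inv]
  rw [e]

theorem mem_of_sq_of_odd_pow {K : Subgroup G} {x : G} {n : ℕ} (hn : Odd n) (h2 : x * x ∈ K)
    (hxn : x ^ n ∈ K) : x ∈ K := by
  obtain ⟨k, rfl⟩ := hn
  have h3 : (x * x) ^ k ∈ K := pow_mem h2 k
  have e : x = x ^ (2 * k + 1) * ((x * x) ^ k)⁻¹ := by
    rw [← pow_two, ← pow_mul, pow_succ]; group
  rw [e]; exact mul_mem hxn (inv_mem h3)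

theorem mul_mem_of_relIndex_two {M H : Subgroup G} (h2 : M.relIndex H = 2) {a b : G}
    (ha : a ∈ H) (hb : b ∈ H) (haM : a ∉ M) (hbM : b ∉ M) : a * b ∈ M := by
  have h := Subgroup.mul_mem_iff_of_index_two (H := M.subgroupOf H) h2 (a := ⟨a, ha⟩)
    (b := ⟨b, hb⟩)
  rw [Subgroup.mem_subgroupOf, Subgroup.mem_subgroupOf, Subgroup.mem_subgroupOf] at h
  exact h.mpr (iff_of_false haM hbM)

section
variable {H P Q M : Subgroup G} {x y : G} {n : ℕ}

theorem ctx_exists_tau (hC : Ctx H P Q M x y n) : ∃ τ ∈ P, τ ∉ Q := by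
  by_contra hcon
  push Not at hcon
  have h1 : Q.relIndex P = 1 := Subgroup.relIndex_eq_one.mpr hcon
  rw [hC.hPQ] at h1
  norm_num at h1

theorem ctx_not_mem_M (hC : Ctx H P Q M x y n) {τ : G} (h1 : τ ∈ P) (h2 : τ ∉ Q) : τ ∉ M := by
  intro h
  apply h2
  rw [← hC.hPM]
  exact ⟨h1, h⟩

/-- a subgroup containing `P` and `x * x` contains `H` -/
theorem ctx_le_of_sq (hC : Ctx H P Q M x y n) {K : Subgroup G} (hPK : P ≤ K)
    (hx2 : x * x ∈ K) : H ≤ K := by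
  have hQK : Q ≤ K := hC.hQP.trans hPK
  have hxK : x ∈ K := mem_of_sq_of_odd_pow hC.dih.hn hx2 (hQK hC.dih.hxn)
  have hMK : M ≤ K := by
    intro m hm
    obtain ⟨k, hk⟩ := hC.dih.hgen m hm
    have e : m = (m * x ^ k) * (x ^ k)⁻¹ := by group
    rw [e]
    exact mul_mem (hQK hk) (inv_mem (pow_mem hxK k))
  obtain ⟨τ, hτP, hτQ⟩ := ctx_exists_tau hC
  have hτM := ctx_not_mem_M hC hτP hτQ
  intro h hh
  by_cases hhM : h ∈ M
  · exact hMK hhM
  · have h1 : h * τ⁻¹ ∈ M := mul_mem_of_relIndex_two hC.dih.hMidx hh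
      (inv_mem (hC.hPH hτP)) hhM (fun h' => hτM (by simpa using inv_mem h'))
    have e : h = (h * τ⁻¹) * τ := by group
    rw [e]
    exact mul_mem (hMK h1) (hPK hτP)

theorem ctx_le_of_conj (hC : Ctx H P Q M x y n) {K : Subgroup G} (hPK : P ≤ K)
    (hx : ∀ p ∈ P, x * p * x⁻¹ ∈ K) : H ≤ K := by
  obtain ⟨τ, hτP, hτQ⟩ := ctx_exists_tau hC
  have hτM := ctx_not_mem_M hC hτP hτQ
  have hq : τ * x * τ⁻¹ * x ∈ Q := hC.dih.hinv τ (hC.hPH hτP) hτM
  apply ctx_le_of_sq hC hPK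
  have e : x * x = (x * τ * x⁻¹) * τ⁻¹ * (τ * x * τ⁻¹ * x) := by group
  rw [e]
  exact mul_mem (mul_mem (hx τ hτP) (inv_mem (hPK hτP))) (hPK (hC.hQP hq))

theorem ctx_le_of_conj_inv (hC : Ctx H P Q M x y n) {K : Subgroup G} (hPK : P ≤ K)
    (hx : ∀ p ∈ P, x⁻¹ * p * x ∈ K) : H ≤ K := by
  obtain ⟨τ, hτP, hτQ⟩ := ctx_exists_tau hC
  have hτM := ctx_not_mem_M hC hτP hτQ
  have hτM' : τ⁻¹ ∉ M := fun h' => hτM (by simpa using inv_mem h')
  have hq : τ⁻¹ * x * τ⁻¹⁻¹ * x ∈ Q := hC.dih.hinv τ⁻¹ (inv_mem (hC.hPH hτP)) hτM'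
  have hxH : x ∈ H := hC.dih.hMH hC.dih.hxM
  have hq' := hC.dih.hQn x hxH _ hq
  apply ctx_le_of_sq hC hPK
  have e : x * x = (x * (τ⁻¹ * x * τ⁻¹⁻¹ * x) * x⁻¹) * (τ⁻¹ * (x⁻¹ * τ * x)) := by group
  rw [e]
  exact mul_mem (hPK (hC.hQP hq')) (mul_mem (inv_mem (hPK hτP)) (hx τ hτP))

theorem ctx_inf_conj (hC : Ctx H P Q M x y n) : P ⊓ MulAut.conj x • P = Q := by
  have hxH : x ∈ H := hC.dih.hMH hC.dih.hxM
  apply le_antisymm
  · intro p hpp
    rw [Subgroup.mem_inf] at hpp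
    obtain ⟨hp, hp'⟩ := hpp
    rw [mem_cj] at hp'
    by_contra hpQ
    have hpM := ctx_not_mem_M hC hp hpQ
    have hp'Q : x⁻¹ * p * x ∉ Q := by
      intro h
      apply hpQ
      have := hC.dih.hQn x hxH _ h
      have e : x * (x⁻¹ * p * x) * x⁻¹ = p := by group
      rwa [e] at this
    have hq1 : p * x * p⁻¹ * x ∈ Q := hC.dih.hinv p (hC.hPH hp) hpM
    have hq2 : x⁻¹ * p * x * p⁻¹ ∈ Q := mul_mem_of_relIndex_two hC.hPQ hp' (inv_mem hp)
      hp'Q (fun h' => hpQ (by simpa using inv_mem h'))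
    have hq3 := hC.dih.hQn x hxH _ hq2
    have hx2 : x * x ∈ Q := by
      have e : x * x = (x * (x⁻¹ * p * x * p⁻¹) * x⁻¹)⁻¹ * (p * x * p⁻¹ * x) := by group
      rw [e]
      exact mul_mem (inv_mem hq3) hq1
    exact hC.dih.hx1 (mem_of_sq_of_odd_pow hC.dih.hn hx2 hC.dih.hxn)
  · intro q hq
    rw [Subgroup.mem_inf]
    refine ⟨hC.hQP hq, ?_⟩
    rw [mem_cj]
    have := hC.dih.hQn x⁻¹ (inv_mem hxH) q hq
    rw [inv_inv] at this
    exact hC.hQP this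

theorem ctx_conj_y_mem (hC : Ctx H P Q M x y n) {p : G} (hp : p ∈ P) : y * p * y⁻¹ ∈ P := by
  have := Subgroup.smul_mem_pointwise_smul p (MulAut.conj y) P hp
  rw [hC.hy] at this
  simpa [MulAut.smul_def] using this

theorem ctx_conj_y_inv_mem (hC : Ctx H P Q M x y n) {p : G} (hp : p ∈ P) :
    y⁻¹ * p * y ∈ P := by
  rw [← hC.hy] at hp
  exact mem_cj.mp hp

end

/-- **(P1)** -/
theorem lemCardP : LemCardP.{u} := by
  intro G _ _ H P Q M x y n hC
  have hxH : x ∈ H := hC.dih.hMH hC.dih.hxM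
  have hg1 : MulAut.conj (y * x⁻¹)⁻¹ • P = MulAut.conj x • P := by
    ext z
    rw [mem_cj, mem_cj]
    constructor
    · intro h
      have := ctx_conj_y_inv_mem hC h
      have e : y⁻¹ * ((y * x⁻¹)⁻¹⁻¹ * z * (y * x⁻¹)⁻¹) * y = x⁻¹ * z * x := by group
      rwa [e] at this
    · intro h
      have := ctx_conj_y_mem hC h
      have e : (y * x⁻¹)⁻¹⁻¹ * z * (y * x⁻¹)⁻¹ = y * (x⁻¹ * z * x) * y⁻¹ := by group
      rwa [e]
  apply Cfsg.Agent.Lib.Helper49.Shunt.lemSimsCoreSym P (y * x⁻¹)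
  · rw [hg1, ctx_inf_conj hC]
    have hQle : Q ≤ MulAut.conj x • P := by
      rw [← ctx_inf_conj hC]; exact inf_le_right
    have h1 := Cfsg.Agent.Lib.Helper11.Shunt.card_mul_relIndex_of_le hC.hQP
    have h2 := Cfsg.Agent.Lib.Helper11.Shunt.card_mul_relIndex_of_le hQle
    rw [Cfsg.Agent.Lib.Helper11.Shunt.card_mulAut_smul, ← h1, hC.hPQ] at h2
    have hpos : 0 < Nat.card Q := Nat.card_pos
    exact Nat.eq_of_mul_eq_mul_left hpos h2
  · intro Y hYP hPn hmn hpn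
    rw [hg1] at hmn
    -- H normalizes Y
    have hHY : H ≤ Subgroup.normalizer (Y : Set G) := by
      apply ctx_le_of_conj hC hPn
      intro p hp
      apply hmn
      rw [mem_cj]
      have e : x⁻¹ * (x * p * x⁻¹) * x = p := by group
      rw [e]; exact hp
    -- N' := y⁻¹ Y y
    have hN'P : MulAut.conj y⁻¹ • Y ≤ P := by
      intro z hz
      rw [mem_cj, inv_inv] at hz
      have := ctx_conj_y_inv_mem hC (hYP hz)
      have e : y⁻¹ * (y * z * y⁻¹) * y = z := by group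
      rwa [e] at this
    have hyy : MulAut.conj y • (MulAut.conj y⁻¹ • Y) = Y := by
      rw [smul_smul, ← map_mul, mul_inv_cancel, map_one, one_smul]
    have hnorm : ∀ z : G, y * z * y⁻¹ ∈ Subgroup.normalizer (Y : Set G) →
        z ∈ Subgroup.normalizer ((MulAut.conj y⁻¹ • Y : Subgroup G) : Set G) := by
      intro z hz
      rw [Subgroup.mem_normalizer_iff] at hz ⊢
      intro w
      rw [mem_cj, mem_cj, inv_inv]
      have := hz (y * w * y⁻¹)
      have e : y * z * y⁻¹ * (y * w * y⁻¹) * (y * z * y⁻¹)⁻¹ = y * (z * w * z⁻¹) * y⁻¹ := by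
        group
      rw [e] at this
      exact this
    have hHN' : H ≤ Subgroup.normalizer ((MulAut.conj y⁻¹ • Y : Subgroup G) : Set G) := by
      apply ctx_le_of_conj_inv hC
      · intro p hp
        exact hnorm p (hPn (ctx_conj_y_mem hC hp))
      · intro p hp
        apply hnorm
        apply hpn
        rw [mem_cj]
        have e : (y * x⁻¹)⁻¹ * (y * (x⁻¹ * p * x) * y⁻¹) * (y * x⁻¹) = p := by group
        rw [e]; exact hp
    have := hC.hNC _ hN'P hHN' (by rw [hyy]; exact hHY)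
    rw [← hyy, this]
    exact Subgroup.smul_bot _

end Cfsg.Agent.Lib.Helper49.DSims
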